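import Mathlib

set_option autoImplicit false

/-!
# [P2] of the S2686 farm: a non scalar normal subgroup of the orthogonal group contains a non
scalar involution of determinant one.
-/

namespace Cfsg.Agent.Lib.Helper60.LBP

open Matrix

variable {n : ℕ} {F : Type*} [Field F]

/-- the bilinear form of the matrix `G`. -/
def bf (G : Matrix (Fin n) (Fin n) F) (x y : Fin n → F) : F := x ⬝ᵥ G *ᵥ y

section basic

variable (G : Matrix (Fin n) (Fin n) F)

lemma bf_add_left (x x' y : Fin n → F) : bf G (x + x') y = bf G x y + bf G x' y := by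
  simp [bf, add_dotProduct]

lemma bf_add_right (x y y' : Fin n → F) : bf G x (y + y') = bf G x y + bf G x y' := by
  simp [bf, mulVec_add, dotProduct_add]

lemma bf_sub_left (x x' y : Fin n → F) : bf G (x - x') y = bf G x y - bf G x' y := by
  simp [bf, sub_dotProduct]

lemma bf_sub_right (x y y' : Fin n → F) : bf G x (y - y') = bf G x y - bf G x y' := by
  simp [bf, mulVec_sub, dotProduct_sub]

lemma bf_smul_left (c : F) (x y : Fin n → F) : bf G (c • x) y = c * bf G x y := by
  simp [bf, smul_dotProduct]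

lemma bf_smul_right (c : F) (x y : Fin n → F) : bf G x (c • y) = c * bf G x y := by
  simp [bf, mulVec_smul, dotProduct_smul]

lemma bf_neg_left (x y : Fin n → F) : bf G (-x) y = - bf G x y := by
  simp [bf, neg_dotProduct]

lemma bf_neg_right (x y : Fin n → F) : bf G x (-y) = - bf G x y := by
  simp [bf, mulVec_neg, dotProduct_neg]

lemma bf_zero_left (y : Fin n → F) : bf G 0 y = 0 := by simp [bf]

lemma bf_zero_right (x : Fin n → F) : bf G x 0 = 0 := by simp [bf]

variable {G}

lemma bf_comm (hG : Gᵀ = G) (x y : Fin n → F) : bf G x y = bf G y x := by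
  unfold bf
  rw [dotProduct_mulVec, ← mulVec_transpose, hG, dotProduct_comm]

lemma bf_mulVec (A : Matrix (Fin n) (Fin n) F) (x y : Fin n → F) :
    bf G (A *ᵥ x) (A *ᵥ y) = bf (Aᵀ * G * A) x y := by
  unfold bf
  rw [← mulVec_mulVec, ← mulVec_mulVec, dotProduct_mulVec x Aᵀ, vecMul_transpose]

lemma bf_ext {M M' : Matrix (Fin n) (Fin n) F} (h : ∀ x y, bf M x y = bf M' x y) : M = M' := by
  ext i j
  simpa [bf] using h (Pi.single i 1) (Pi.single j 1)

lemma bf_isom {A : Matrix (Fin n) (Fin n) F} (hA : Aᵀ * G * A = G) (x y : Fin n → F) :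
    bf G (A *ᵥ x) (A *ᵥ y) = bf G x y := by
  rw [bf_mulVec, hA]

lemma isom_of_bf {A : Matrix (Fin n) (Fin n) F}
    (hA : ∀ x y, bf G (A *ᵥ x) (A *ᵥ y) = bf G x y) : Aᵀ * G * A = G := by
  apply bf_ext
  intro x y
  rw [← bf_mulVec, hA]

lemma exists_bf_ne (hdet : G.det ≠ 0) {x : Fin n → F} (hx : x ≠ 0) : ∃ y, bf G y x ≠ 0 := by
  by_contra hcon
  push Not at hcon
  apply hx
  apply eq_zero_of_mulVec_eq_zero hdet
  ext i
  simpa [bf] using hcon (Pi.single i 1)

lemma exists_bf_eq_one (hdet : G.det ≠ 0) {x : Fin n → F} (hx : x ≠ 0) : ∃ y, bf G y x = 1 := by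
  obtain ⟨y, hy⟩ := exists_bf_ne hdet hx
  refine ⟨(bf G y x)⁻¹ • y, ?_⟩
  rw [bf_smul_left, inv_mul_cancel₀ hy]

/-- two linear conditions have a non zero solution in dimension at least three. -/
lemma exists_perp (hn : 3 ≤ n) (a₁ a₂ : Fin n → F) :
    ∃ z : Fin n → F, z ≠ 0 ∧ bf G z a₁ = 0 ∧ bf G z a₂ = 0 := by
  let f : (Fin n → F) →ₗ[F] (F × F) :=
    { toFun := fun z => (bf G z a₁, bf G z a₂)
      map_add' := fun x y => by simp [bf_add_left]
      map_smul' := fun c x => by simp [bf_smul_left] }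
  have h : LinearMap.ker f ≠ ⊥ := by
    apply LinearMap.ker_ne_bot_of_finrank_lt
    simp
    omega
  obtain ⟨z, hz, hz0⟩ := (Submodule.ne_bot_iff _).1 h
  have hz' : (bf G z a₁, bf G z a₂) = (0, 0) := hz
  rw [Prod.mk.injEq] at hz'
  exact ⟨z, hz0, hz'.1, hz'.2⟩

end basic

section geom

variable {G : Matrix (Fin n) (Fin n) F}

lemma bf_add_self (hG : Gᵀ = G) (x y : Fin n → F) :
    bf G (x + y) (x + y) = bf G x x + 2 * bf G x y + bf G y y := by
  rw [bf_add_left, bf_add_right, bf_add_right, bf_comm hG y x]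
  ring

/-- a non singular vector orthogonal to an orthogonal pair of non singular vectors. -/
lemma exists_perp_nonsing (h2 : (2 : F) ≠ 0) (hn : 3 ≤ n) (hG : Gᵀ = G) (hdet : G.det ≠ 0)
    {v w : Fin n → F} (hv : bf G v v ≠ 0) (hw : bf G w w ≠ 0) (hvw : bf G v w = 0) :
    ∃ z, bf G z v = 0 ∧ bf G z w = 0 ∧ bf G z z ≠ 0 := by
  by_contra hcon
  push Not at hcon
  obtain ⟨z0, hz0, h1, h2'⟩ := exists_perp (G := G) hn v w
  obtain ⟨x, hx⟩ := exists_bf_ne hdet hz0
  apply hx
  have hwv : bf G w v = 0 := by rw [bf_comm hG]; exact hvw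
  set x' : Fin n → F := x - (bf G x v / bf G v v) • v - (bf G x w / bf G w w) • w with hx'
  have e1 : bf G x' v = 0 := by
    rw [hx', bf_sub_left, bf_sub_left, bf_smul_left, bf_smul_left, hwv]
    field_simp
    ring
  have e2 : bf G x' w = 0 := by
    rw [hx', bf_sub_left, bf_sub_left, bf_smul_left, bf_smul_left, hvw]
    field_simp
    ring
  have q1 := hcon z0 h1 h2'
  have q2 := hcon x' e1 e2
  have q3 := hcon (x' + z0) (by rw [bf_add_left, e1, h1, add_zero])
    (by rw [bf_add_left, e2, h2', add_zero])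
  rw [bf_add_self hG, q1, q2] at q3
  have q4 : bf G x' z0 = 0 := by
    have : 2 * bf G x' z0 = 0 := by linear_combination q3
    rcases mul_eq_zero.1 this with h | h
    · exact absurd h h2
    · exact h
  have e3 : x = x' + (bf G x v / bf G v v) • v + (bf G x w / bf G w w) • w := by
    rw [hx']; abel
  rw [e3, bf_add_left, bf_add_left, bf_smul_left, bf_smul_left, q4, bf_comm hG v z0, h1,
    bf_comm hG w z0, h2']
  ring

lemma exists_nonsing (h2 : (2 : F) ≠ 0) (hn : 3 ≤ n) (hG : Gᵀ = G) (hdet : G.det ≠ 0) :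
    ∃ v, bf G v v ≠ 0 := by
  by_contra hcon
  push Not at hcon
  obtain ⟨z0, hz0, -, -⟩ := exists_perp (G := G) hn 0 0
  obtain ⟨x, hx⟩ := exists_bf_ne hdet hz0
  apply hx
  have q3 := hcon (x + z0)
  rw [bf_add_self hG, hcon, hcon] at q3
  have : 2 * bf G x z0 = 0 := by linear_combination q3
  rcases mul_eq_zero.1 this with h | h
  · exact absurd h h2
  · exact h

/-- the reflection, on vectors. -/
def rf (G : Matrix (Fin n) (Fin n) F) (v x : Fin n → F) : Fin n → F :=
  x - (2 * bf G v x / bf G v v) • v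

/-- the reflection, as a matrix. -/
def Rm (G : Matrix (Fin n) (Fin n) F) (v : Fin n → F) : Matrix (Fin n) (Fin n) F :=
  1 - (2 / bf G v v) • vecMulVec v (G *ᵥ v)

lemma Rm_mulVec (hG : Gᵀ = G) (v x : Fin n → F) : Rm G v *ᵥ x = rf G v x := by
  unfold Rm rf
  rw [sub_mulVec, one_mulVec, smul_mulVec, vecMulVec_mulVec]
  have : (G *ᵥ v) ⬝ᵥ x = bf G v x := by
    rw [bf_comm hG]; unfold bf; rw [dotProduct_comm]
  rw [this]
  ext i
  simp
  ring

lemma bf_rf_rf (hG : Gᵀ = G) {v : Fin n → F} (hv : bf G v v ≠ 0) (x y : Fin n → F) :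
    bf G (rf G v x) (rf G v y) = bf G x y := by
  unfold rf
  rw [bf_sub_left, bf_sub_right, bf_sub_right, bf_smul_left, bf_smul_left, bf_smul_right,
    bf_smul_right, bf_comm hG x v]
  field_simp
  ring

lemma rf_rf (_hG : Gᵀ = G) {v : Fin n → F} (hv : bf G v v ≠ 0) (x : Fin n → F) :
    rf G v (rf G v x) = x := by
  unfold rf
  rw [bf_sub_right, bf_smul_right]
  ext i
  simp
  field_simp
  ring

lemma Rm_mul_self (hG : Gᵀ = G) {v : Fin n → F} (hv : bf G v v ≠ 0) : Rm G v * Rm G v = 1 := by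
  rw [ext_iff_mulVec]
  intro x
  rw [← mulVec_mulVec, Rm_mulVec hG, Rm_mulVec hG, rf_rf hG hv, one_mulVec]

/-- the reflection, in the general linear group. -/
def RG (hG : Gᵀ = G) {v : Fin n → F} (hv : bf G v v ≠ 0) : GL (Fin n) F :=
  ⟨Rm G v, Rm G v, Rm_mul_self hG hv, Rm_mul_self hG hv⟩

lemma RG_val (hG : Gᵀ = G) {v : Fin n → F} (hv : bf G v v ≠ 0) : (RG hG hv).1 = Rm G v := rfl

lemma RG_inv (hG : Gᵀ = G) {v : Fin n → F} (hv : bf G v v ≠ 0) : (RG hG hv)⁻¹ = RG hG hv := rfl

lemma RG_isom (hG : Gᵀ = G) {v : Fin n → F} (hv : bf G v v ≠ 0) :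
    (RG hG hv).1ᵀ * G * (RG hG hv).1 = G := by
  apply isom_of_bf
  intro x y
  rw [RG_val, Rm_mulVec hG, Rm_mulVec hG, bf_rf_rf hG hv]

/-- conjugating a reflection by an isometry. -/
lemma conj_RG (hG : Gᵀ = G) {v : Fin n → F} (hv : bf G v v ≠ 0) (g : GL (Fin n) F)
    (hg : g.1ᵀ * G * g.1 = G) (hgv : bf G (g.1 *ᵥ v) (g.1 *ᵥ v) ≠ 0) :
    g * RG hG hv * g⁻¹ = RG hG hgv := by
  rw [mul_inv_eq_iff_eq_mul]
  apply Units.ext
  rw [Units.val_mul, Units.val_mul, RG_val, RG_val, ext_iff_mulVec]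
  intro x
  rw [← mulVec_mulVec, ← mulVec_mulVec, Rm_mulVec hG, Rm_mulVec hG]
  unfold rf
  rw [mulVec_sub, mulVec_smul, bf_isom hg, bf_isom hg]

/-- an isometry all of whose non singular vectors are eigenvectors for `ε` is scalar. -/
lemma scalar_of_eigen (h2 : (2 : F) ≠ 0) (hG : Gᵀ = G) {g : Matrix (Fin n) (Fin n) F} {ε : F}
    {v0 : Fin n → F} (hv0 : bf G v0 v0 ≠ 0)
    (hε : ∀ x, bf G x x ≠ 0 → g *ᵥ x = ε • x) : g = ε • (1 : Matrix (Fin n) (Fin n) F) := by
  rw [ext_iff_mulVec]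
  intro x
  rw [smul_mulVec, one_mulVec]
  have key : ∀ c : F, bf G (x + c • v0) (x + c • v0) ≠ 0 → g *ᵥ x = ε • x := by
    intro c hc
    have h1 := hε _ hc
    rw [mulVec_add, mulVec_smul, hε _ hv0, smul_add] at h1
    have h3 : c • ε • v0 = ε • c • v0 := smul_comm _ _ _
    rw [h3] at h1
    exact add_right_cancel h1
  by_cases h0 : bf G x x = 0
  · by_cases h1 : bf G (x + (1 : F) • v0) (x + (1 : F) • v0) = 0
    · apply key (-1)
      intro h3
      rw [bf_add_self hG, bf_smul_right, bf_smul_right, bf_smul_left, h0] at h1 h3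
      apply hv0
      have : 2 * bf G v0 v0 = 0 := by linear_combination h1 + h3
      rcases mul_eq_zero.1 this with h | h
      · exact absurd h h2
      · exact h
    · exact key 1 h1
  · exact hε x h0

lemma exists_non_eigen (h2 : (2 : F) ≠ 0) (hn : 3 ≤ n) (hG : Gᵀ = G) (hdet : G.det ≠ 0)
    {g : Matrix (Fin n) (Fin n) F} (hg : gᵀ * G * g = G)
    (hns : ∀ c : F, g ≠ c • (1 : Matrix (Fin n) (Fin n) F)) :
    ∃ v, bf G v v ≠ 0 ∧ ∀ c : F, g *ᵥ v ≠ c • v := by
  by_contra hcon
  push Not at hcon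
  have two_ne : ∀ a : F, 2 * a = 0 → a = 0 := by
    intro a ha
    rcases mul_eq_zero.1 ha with h | h
    · exact absurd h h2
    · exact h
  have hE : ∀ v, bf G v v ≠ 0 → g *ᵥ v = v ∨ g *ᵥ v = -v := by
    intro v hv
    obtain ⟨c, hc⟩ := hcon v hv
    have h1 := bf_isom hg v v
    rw [hc, bf_smul_left, bf_smul_right] at h1
    have h3 : (c - 1) * (c + 1) = 0 := by
      have : ((c - 1) * (c + 1)) * bf G v v = 0 := by linear_combination h1
      rcases mul_eq_zero.1 this with h | h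
      · exact h
      · exact absurd h hv
    rcases mul_eq_zero.1 h3 with h | h
    · left
      rw [hc, sub_eq_zero.1 h, one_smul]
    · right
      rw [hc, eq_neg_of_add_eq_zero_left h, neg_smul, one_smul]
  have opp : ∀ x₁ x₂, bf G x₁ x₁ ≠ 0 → bf G x₂ x₂ ≠ 0 → g *ᵥ x₁ = x₁ → g *ᵥ x₂ = -x₂ →
      bf G x₁ x₂ = 0 ∧ bf G x₂ x₂ = - bf G x₁ x₁ := by
    intro x₁ x₂ h₁ h₂ g₁ g₂
    have hb : bf G x₁ x₂ = 0 := by
      have h1 := bf_isom hg x₁ x₂
      rw [g₁, g₂, bf_neg_right] at h1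
      apply two_ne
      linear_combination -h1
    refine ⟨hb, ?_⟩
    by_contra hne
    have hq : bf G (x₁ + x₂) (x₁ + x₂) ≠ 0 := by
      rw [bf_add_self hG, hb]
      intro h
      apply hne
      linear_combination h
    have hgs : g *ᵥ (x₁ + x₂) = x₁ - x₂ := by
      rw [mulVec_add, g₁, g₂, sub_eq_add_neg]
    rcases hE _ hq with h | h
    · rw [hgs] at h
      have h3 := congrArg (fun z => bf G z x₂) h
      simp only [bf_sub_left, bf_add_left, hb] at h3
      apply h₂
      apply two_ne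
      linear_combination -h3
    · rw [hgs] at h
      have h3 := congrArg (fun z => bf G x₁ z) h
      simp only [bf_sub_right, bf_neg_right, bf_add_right, hb] at h3
      apply h₁
      apply two_ne
      linear_combination h3
  have notboth : ∀ v x, bf G v v ≠ 0 → bf G x x ≠ 0 → g *ᵥ v = v → g *ᵥ x = -x → False := by
    intro v x hv hx gv gx
    obtain ⟨hb, hq⟩ := opp v x hv hx gv gx
    obtain ⟨z, hzv, hzx, hz⟩ := exists_perp_nonsing h2 hn hG hdet hv hx hb
    rcases hE z hz with gz | gz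
    · obtain ⟨-, hq2⟩ := opp z x hz hx gz gx
      have hq3 : bf G (v + z) (v + z) = 2 * bf G v v := by
        rw [bf_add_self hG, bf_comm hG v z, hzv]
        linear_combination hq2 - hq
      have hq4 : bf G (v + z) (v + z) ≠ 0 := by
        rw [hq3]
        exact mul_ne_zero h2 hv
      obtain ⟨-, hq5⟩ := opp (v + z) x hq4 hx (by rw [mulVec_add, gv, gz]) gx
      apply hv
      rw [hq3] at hq5
      linear_combination hq5 - hq
    · obtain ⟨-, hq2⟩ := opp v z hv hz gv gz
      have hq3 : bf G (x + z) (x + z) = - (2 * bf G v v) := by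
        rw [bf_add_self hG, bf_comm hG x z, hzx]
        linear_combination hq + hq2
      have hq4 : bf G (x + z) (x + z) ≠ 0 := by
        rw [hq3]
        exact neg_ne_zero.2 (mul_ne_zero h2 hv)
      obtain ⟨-, hq5⟩ := opp v (x + z) hv hq4 gv (by rw [mulVec_add, gx, gz, neg_add])
      apply hv
      rw [hq3] at hq5
      linear_combination -hq5
  obtain ⟨v0, hv0⟩ := exists_nonsing h2 hn hG hdet
  rcases hE v0 hv0 with g0 | g0
  · apply hns 1
    apply scalar_of_eigen h2 hG hv0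
    intro x hx
    rw [one_smul]
    rcases hE x hx with h | h
    · exact h
    · exact (notboth v0 x hv0 hx g0 h).elim
  · apply hns (-1)
    apply scalar_of_eigen h2 hG hv0
    intro x hx
    rw [neg_smul, one_smul]
    rcases hE x hx with h | h
    · exact (notboth x v0 hx hv0 h g0).elim
    · exact h

lemma bf_rf_rf_self (hG : Gᵀ = G) {v w : Fin n → F} (u : Fin n → F) {c : F} (hc : c ≠ 0)
    (hv : bf G v v = c) (hw : bf G w w = c) :
    bf G (rf G w (rf G v u)) u = bf G u u - (2 / c) * ((bf G v u) ^ 2 + (bf G w u) ^ 2)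
      + (4 * bf G v w / c ^ 2) * bf G v u * bf G w u := by
  unfold rf
  rw [hv, hw]
  simp only [bf_sub_left, bf_smul_left, bf_sub_right, bf_smul_right]
  rw [bf_comm hG w v]
  field_simp
  ring

lemma exists_quad [Fintype F] (h2 : (2 : F) ≠ 0) {c c' : F} (hc : c ≠ 0) (hc' : c' ≠ 0) (κ : F) :
    ∃ α β : F, c * α ^ 2 + c' * β ^ 2 = κ := by
  have hch : ringChar F ≠ 2 := by
    intro h
    apply h2
    have := ringChar.Nat.cast_ringChar (R := F)
    rw [h] at this
    exact_mod_cast this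
  have hodd : Fintype.card F % 2 = 1 := FiniteField.odd_card_of_char_ne_two hch
  have hf : (Polynomial.C c * Polynomial.X ^ 2 : Polynomial F).degree = 2 :=
    Polynomial.degree_C_mul_X_pow 2 hc
  have hg0 : (Polynomial.C c' * Polynomial.X ^ 2 : Polynomial F).degree = 2 :=
    Polynomial.degree_C_mul_X_pow 2 hc'
  have hg : (Polynomial.C c' * Polynomial.X ^ 2 - Polynomial.C κ : Polynomial F).degree = 2 := by
    rw [Polynomial.degree_sub_C, hg0]
    rw [hg0]
    decide
  obtain ⟨α, β, h⟩ := FiniteField.exists_root_sum_quadratic hf hg hodd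
  refine ⟨α, β, ?_⟩
  simp at h
  linear_combination h

lemma key [Fintype F] (h2 : (2 : F) ≠ 0) (hn : 3 ≤ n) (hG : Gᵀ = G) (hdet : G.det ≠ 0)
    {v w : Fin n → F} {c : F} (hc : c ≠ 0) (hv : bf G v v = c) (hw : bf G w w = c)
    (hvw : ∀ k : F, w ≠ k • v) :
    ∃ u, bf G u u ≠ 0 ∧ bf G (rf G w (rf G v u)) u = 0 := by
  obtain ⟨e, he⟩ : ∃ e, bf G v w = e := ⟨_, rfl⟩
  have he' : bf G w v = e := by rw [bf_comm hG]; exact he
  obtain ⟨s, hs⟩ : ∃ s, s = w - (e / c) • v := ⟨_, rfl⟩
  have hs0 : s ≠ 0 := by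
    rw [hs]
    exact fun h => hvw (e / c) (sub_eq_zero.1 h)
  have hw_eq : w = s + (e / c) • v := by rw [hs]; abel
  have hvs : bf G v s = 0 := by
    rw [hs, bf_sub_right, bf_smul_right, he, hv]
    field_simp
    ring
  have hsv : bf G s v = 0 := by rw [bf_comm hG]; exact hvs
  have hss : bf G s s = c - e * e / c := by
    rw [hs, bf_sub_left, bf_sub_right, bf_sub_right, bf_smul_left, bf_smul_left, bf_smul_right,
      bf_smul_right, hv, hw, he, he']
    field_simp
    ring
  by_cases hec : e * e = c * c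
  · have hss0 : bf G s s = 0 := by
      rw [hss, hec]
      field_simp
      ring
    obtain ⟨u0, hu0⟩ := exists_bf_eq_one hdet hs0
    obtain ⟨t, ht⟩ : ∃ t, t = (2 / c - bf G u0 u0) / 2 := ⟨_, rfl⟩
    have hQ : bf G (u0 + t • s) (u0 + t • s) = 2 / c := by
      rw [bf_add_self hG, bf_smul_right, bf_smul_right, bf_smul_left, hss0, hu0, ht]
      field_simp
      ring
    have hsu : bf G s (u0 + t • s) = 1 := by
      rw [bf_add_right, bf_smul_right, hss0, bf_comm hG, hu0]
      ring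
    refine ⟨u0 + t • s, ?_, ?_⟩
    · rw [hQ]
      exact div_ne_zero h2 hc
    · rw [bf_rf_rf_self hG _ hc hv hw, hQ, he]
      obtain ⟨x, hx⟩ : ∃ x, bf G v (u0 + t • s) = x := ⟨_, rfl⟩
      have hz : bf G w (u0 + t • s) = 1 + (e / c) * x := by
        rw [hw_eq, bf_add_left, bf_smul_left, hsu, hx]
      rw [hz, hx]
      field_simp
      linear_combination (2 * x ^ 2) * hec
  · obtain ⟨c', hc'⟩ : ∃ c', c' = c - e * e / c := ⟨_, rfl⟩
    rw [← hc'] at hss
    have hc'0 : c' ≠ 0 := by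
      rw [hc']
      intro h
      apply hec
      field_simp at h
      linear_combination -h
    obtain ⟨T, hT⟩ : ∃ T, T = 4 * (e * e) / (c * c) - 2 := ⟨_, rfl⟩
    by_cases hT0 : T = 0
    · refine ⟨v, by rw [hv]; exact hc, ?_⟩
      rw [bf_rf_rf_self hG _ hc hv hw, hv, he', he]
      rw [hT] at hT0
      field_simp at hT0 ⊢
      have h5 : 2 * e ^ 2 - c ^ 2 = 0 := by
        have : 2 * (2 * e ^ 2 - c ^ 2) = 0 := by linear_combination hT0
        exact (mul_eq_zero.1 this).resolve_left h2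
      linear_combination h5
    · obtain ⟨b0, hb0v, hb0s, hd⟩ := exists_perp_nonsing h2 hn hG hdet (v := v) (w := s)
        (by rw [hv]; exact hc) (by rw [hss]; exact hc'0) hvs
      obtain ⟨d, hdd⟩ : ∃ d, bf G b0 b0 = d := ⟨_, rfl⟩
      rw [hdd] at hd
      obtain ⟨α, β, hαβ⟩ := exists_quad h2 hc hc'0 (-2 * d / T)
      have hvb0 : bf G v b0 = 0 := by rw [bf_comm hG]; exact hb0v
      have hsb0 : bf G s b0 = 0 := by rw [bf_comm hG]; exact hb0s
      have hQ : bf G (α • v + β • s + b0) (α • v + β • s + b0) = c * α ^ 2 + c' * β ^ 2 + d := by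
        simp only [bf_add_left, bf_add_right, bf_smul_left, bf_smul_right, hv, hss, hvs, hsv,
          hvb0, hsb0, hb0v, hb0s, hdd]
        ring
      have hx : bf G v (α • v + β • s + b0) = α * c := by
        simp only [bf_add_right, bf_smul_right, hv, hvs, hvb0]
        ring
      have hz : bf G w (α • v + β • s + b0) = β * c' + (e / c) * (α * c) := by
        rw [hw_eq]
        simp only [bf_add_left, bf_add_right, bf_smul_left, bf_smul_right, hv, hss, hvs, hsv,
          hvb0, hsb0]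
        ring
      refine ⟨α • v + β • s + b0, ?_, ?_⟩
      · rw [hQ, hαβ]
        have hT2 : T - 2 ≠ 0 := by
          rw [hT]
          intro h
          apply hec
          field_simp at h
          have h5 : 2 * (2 * (e * e - c * c)) = 0 := by linear_combination h
          have h6 := (mul_eq_zero.1 ((mul_eq_zero.1 h5).resolve_left h2)).resolve_left h2
          exact sub_eq_zero.1 h6
        have : -2 * d / T + d = d * (T - 2) / T := by
          field_simp
          ring
        rw [this]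
        exact div_ne_zero (mul_ne_zero hd hT2) hT0
      · rw [bf_rf_rf_self hG _ hc hv hw, hQ, hx, hz, he]
        have id1 : c * α ^ 2 + c' * β ^ 2 + d
            - 2 / c * ((α * c) ^ 2 + (β * c' + e / c * (α * c)) ^ 2)
            + 4 * e / c ^ 2 * (α * c) * (β * c' + e / c * (α * c))
            = (T / 2) * (c * α ^ 2 + c' * β ^ 2) + d := by
          rw [hT, hc']
          field_simp
          ring
        rw [id1, hαβ]
        field_simp
        ring

lemma rf_comm_sq (hG : Gᵀ = G) {a u : Fin n → F} (ha : bf G a a ≠ 0) (hu : bf G u u ≠ 0)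
    (hau : bf G a u = 0) (x : Fin n → F) : rf G a (rf G u (rf G a (rf G u x))) = x := by
  have hua : bf G u a = 0 := by rw [bf_comm hG]; exact hau
  unfold rf
  simp only [bf_sub_right, bf_smul_right, hau, hua]
  ext i
  simp
  field_simp
  ring

end geom

/-- [P2] a non scalar normal subgroup of the orthogonal group contains a non scalar involution -/
theorem oddO_geom [Fintype F] (h2 : (2 : F) ≠ 0) (hn : 3 ≤ n)
    (G : Matrix (Fin n) (Fin n) F) (hG : Gᵀ = G) (hdet : G.det ≠ 0)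
    (H : Subgroup (GL (Fin n) F)) (hH : ∀ g ∈ H, g.1ᵀ * G * g.1 = G)
    (hnorm : ∀ x : GL (Fin n) F, x.1ᵀ * G * x.1 = G → ∀ g ∈ H, x * g * x⁻¹ ∈ H)
    (hns : ∃ g ∈ H, ∀ c : F, g.1 ≠ c • (1 : Matrix (Fin n) (Fin n) F)) :
    ∃ t ∈ H, t * t = 1 ∧ t.1.det = 1 ∧ ∀ c : F, t.1 ≠ c • (1 : Matrix (Fin n) (Fin n) F) := by
  obtain ⟨g, hgH, hgns⟩ := hns
  have hg := hH g hgH
  obtain ⟨v, hv, hvne⟩ := exists_non_eigen h2 hn hG hdet hg hgns
  have hw : bf G (g.1 *ᵥ v) (g.1 *ᵥ v) ≠ 0 := by rw [bf_isom hg]; exact hv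
  have comm_mem : ∀ (g : GL (Fin n) F), g ∈ H → ∀ {v : Fin n → F} (hv : bf G v v ≠ 0),
      g * RG hG hv * g⁻¹ * (RG hG hv)⁻¹ ∈ H := by
    intro g hg v hv
    have h1 := hnorm (RG hG hv) (RG_isom hG hv) g⁻¹ (H.inv_mem hg)
    have h3 := H.mul_mem hg h1
    convert h3 using 1
    group
  obtain ⟨y, hy⟩ : ∃ y, y = g * RG hG hv * g⁻¹ * (RG hG hv)⁻¹ := ⟨_, rfl⟩
  have hyH : y ∈ H := by rw [hy]; exact comm_mem g hgH hv
  have hy2 : y = RG hG hw * RG hG hv := by rw [hy, conj_RG hG hv g hg hw, RG_inv]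
  have hyv : ∀ x, y.1 *ᵥ x = rf G (g.1 *ᵥ v) (rf G v x) := by
    intro x
    rw [hy2, Units.val_mul, ← mulVec_mulVec, RG_val, RG_val, Rm_mulVec hG, Rm_mulVec hG]
  obtain ⟨u, hu, hub⟩ := key h2 hn hG hdet hv rfl (bf_isom hg v v) (fun k => hvne k)
  rw [← hyv] at hub
  have hyi := hH y hyH
  have ha : bf G (y.1 *ᵥ u) (y.1 *ᵥ u) ≠ 0 := by rw [bf_isom hyi]; exact hu
  obtain ⟨t, ht⟩ : ∃ t, t = y * RG hG hu * y⁻¹ * (RG hG hu)⁻¹ := ⟨_, rfl⟩
  have ht2 : t = RG hG ha * RG hG hu := by rw [ht, conj_RG hG hu y hyi ha, RG_inv]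
  have htv : ∀ x, t.1 *ᵥ x = rf G (y.1 *ᵥ u) (rf G u x) := by
    intro x
    rw [ht2, Units.val_mul, ← mulVec_mulVec, RG_val, RG_val, Rm_mulVec hG, Rm_mulVec hG]
  refine ⟨t, by rw [ht]; exact comm_mem y hyH hu, ?_, ?_, ?_⟩
  · apply Units.ext
    rw [Units.val_mul, Units.val_one, ext_iff_mulVec]
    intro x
    rw [← mulVec_mulVec, htv, htv, rf_comm_sq hG ha hu hub, one_mulVec]
  · have h1 : Matrix.GeneralLinearGroup.det t = 1 := by
      rw [ht, map_mul, map_mul, map_mul, map_inv, map_inv,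
        mul_comm (Matrix.GeneralLinearGroup.det y), mul_inv_cancel_right, mul_inv_cancel]
    have h3 := congrArg Units.val h1
    simpa using h3
  · intro c hc
    obtain ⟨x, hx0, hxu, hxa⟩ := exists_perp (G := G) hn u (y.1 *ᵥ u)
    have e1 : t.1 *ᵥ x = x := by
      rw [htv]
      unfold rf
      rw [bf_comm hG u x, hxu]
      simp only [mul_zero, zero_div, zero_smul, sub_zero]
      rw [bf_comm hG _ x, hxa]
      simp
    have e2 : t.1 *ᵥ u = -u := by
      rw [htv]
      have : rf G u u = -u := by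
        unfold rf
        ext i
        simp
        field_simp
        ring
      rw [this]
      unfold rf
      rw [bf_neg_right, hub]
      simp
    rw [hc, smul_mulVec, one_mulVec] at e1 e2
    have hc1 : c = 1 := by
      have : (c - 1) • x = 0 := by rw [sub_smul, e1, one_smul, sub_self]
      rcases smul_eq_zero.1 this with h | h
      · exact sub_eq_zero.1 h
      · exact absurd h hx0
    rw [hc1, one_smul] at e2
    apply hu
    have hu0 : u = 0 := by
      have : (2 : F) • u = 0 := by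
        rw [two_smul]
        nth_rewrite 1 [e2]
        simp
      rcases smul_eq_zero.1 this with h | h
      · exact absurd h h2
      · exact h
    rw [hu0, bf_zero_left]

end Cfsg.Agent.Lib.Helper60.LBP
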